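import Mathlib
import Cfsg.Agent.Lib.Helper70.S3701.Defs

/-!
# S3701, package NU: the linear character of `C = T⟨w⟩`

`C` is the set of normal forms `a^i b^j c^k w^e`; `ν (a^i b^j c^k w^e) = ω^i` for a primitive
cube root of unity `ω`.
-/

set_option autoImplicit false

namespace Cfsg.Agent.Lib.Helper90.S3701

open Cfsg.Agent.Lib.Helper70.S3701

universe u

section general

variable {G : Type*} [Group G]

/-- Product of monomials in three commuting elements. -/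
theorem abc_mul {a b c : G} (hab : a * b = b * a) (hac : a * c = c * a) (hbc : b * c = c * b)
    (i j k i' j' k' : ℕ) :
    a ^ i * b ^ j * c ^ k * (a ^ i' * b ^ j' * c ^ k') =
      a ^ (i + i') * b ^ (j + j') * c ^ (k + k') := by
  have h1 : c ^ k * a ^ i' = a ^ i' * c ^ k :=
    (Commute.pow_pow (show Commute c a from hac.symm) k i').eq
  have h2 : b ^ j * a ^ i' = a ^ i' * b ^ j :=
    (Commute.pow_pow (show Commute b a from hab.symm) j i').eq
  have h3 : c ^ k * b ^ j' = b ^ j' * c ^ k :=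
    (Commute.pow_pow (show Commute c b from hbc.symm) k j').eq
  calc a ^ i * b ^ j * c ^ k * (a ^ i' * b ^ j' * c ^ k')
      = a ^ i * b ^ j * (c ^ k * a ^ i') * b ^ j' * c ^ k' := by group
    _ = a ^ i * b ^ j * (a ^ i' * c ^ k) * b ^ j' * c ^ k' := by rw [h1]
    _ = a ^ i * (b ^ j * a ^ i') * (c ^ k * b ^ j') * c ^ k' := by group
    _ = a ^ i * (a ^ i' * b ^ j) * (b ^ j' * c ^ k) * c ^ k' := by rw [h2, h3]
    _ = a ^ (i + i') * b ^ (j + j') * c ^ (k + k') := by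
      rw [pow_add, pow_add, pow_add]; group

theorem inv_eq_sq_of_cube {b : G} (h : b ^ 3 = 1) : b⁻¹ = b ^ 2 := by
  apply inv_eq_of_mul_eq_one_right
  have h1 : b * b ^ 2 = b ^ 3 := by group
  rw [h1, h]

theorem pow_two_cases {w : G} (h : w * w = 1) (e : ℕ) : w ^ e = 1 ∨ w ^ e = w := by
  induction e with
  | zero => left; exact pow_zero w
  | succ n ih =>
    rcases ih with h1 | h1
    · right; rw [pow_succ, h1, one_mul]
    · left; rw [pow_succ, h1, h]

theorem inv_eq_pow_card [Finite G] (y : G) : y⁻¹ = y ^ (Nat.card G - 1) := by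
  apply inv_eq_of_mul_eq_one_right
  rw [← pow_succ', Nat.sub_add_cancel Nat.card_pos, pow_card_eq_one']

theorem exists_omega : ∃ ω : ℂˣ, ω ^ 3 = 1 ∧ ω ≠ 1 := by
  have hζ := Complex.isPrimitiveRoot_exp 3 (by norm_num)
  obtain ⟨ζ, hζe⟩ : ∃ ζ : ℂ, ζ = Complex.exp (2 * Real.pi * Complex.I / (3 : ℕ)) := ⟨_, rfl⟩
  rw [← hζe] at hζ
  have h3 : ζ ^ 3 = 1 := hζ.pow_eq_one
  have h1 : ζ ≠ 1 := hζ.ne_one (by norm_num)
  have h0 : ζ ≠ 0 := hζ.ne_zero (by norm_num)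
  refine ⟨Units.mk0 ζ h0, ?_, ?_⟩
  · apply Units.ext
    rw [Units.val_pow_eq_pow_val, Units.val_mk0, Units.val_one, h3]
  · intro h
    apply h1
    have := congrArg (fun u : ℂˣ => (u : ℂ)) h
    simpa using this

end general

section data

variable {G : Type u} [Group G] {H T : Subgroup G} {a b c w w' : G}

theorem w_conj (D : Data H T a b c w w') (i j k : ℕ) :
    w * (a ^ i * b ^ j * c ^ k) * w⁻¹ = a ^ i * b ^ (2 * j) * c ^ (2 * k) := by
  have h1 : w * (a ^ i * b ^ j * c ^ k) * w⁻¹ =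
      (w * a * w⁻¹) ^ i * (w * b * w⁻¹) ^ j * (w * c * w⁻¹) ^ k := by
    rw [conj_pow, conj_pow, conj_pow]; group
  rw [h1, D.wa, D.wb, D.wc, inv_eq_sq_of_cube D.b3, inv_eq_sq_of_cube D.c3, ← pow_mul,
    ← pow_mul]

theorem w'_conj (D : Data H T a b c w w') (i j k : ℕ) :
    w' * (a ^ i * b ^ j * c ^ k) * w'⁻¹ = a ^ (2 * i) * b ^ j * c ^ (2 * k) := by
  have h1 : w' * (a ^ i * b ^ j * c ^ k) * w'⁻¹ =
      (w' * a * w'⁻¹) ^ i * (w' * b * w'⁻¹) ^ j * (w' * c * w'⁻¹) ^ k := by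
    rw [conj_pow, conj_pow, conj_pow]; group
  rw [h1, D.w'a, D.w'b, D.w'c, inv_eq_sq_of_cube D.a3, inv_eq_sq_of_cube D.c3, ← pow_mul,
    ← pow_mul]

/-- The product of two normal forms. -/
theorem C_mul (D : Data H T a b c w w') (i j k e i' j' k' e' : ℕ) :
    ∃ j'' k'' : ℕ, (a ^ i * b ^ j * c ^ k * w ^ e) * (a ^ i' * b ^ j' * c ^ k' * w ^ e') =
      a ^ (i + i') * b ^ j'' * c ^ k'' * w ^ (e + e') := by
  rcases pow_two_cases D.w2 e with h | h
  · refine ⟨j + j', k + k', ?_⟩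
    rw [pow_add w e e', h, ← abc_mul D.ab D.ac D.bc]
    group
  · refine ⟨j + 2 * j', k + 2 * k', ?_⟩
    have h1 := w_conj D i' j' k'
    rw [pow_add w e e', h, ← abc_mul D.ab D.ac D.bc, ← h1]
    group

theorem T_uniq (D : Data H T a b c w w') (ω : ℂˣ) (hω : ω ^ 3 = 1) (i j k i' j' k' : ℕ)
    (h : a ^ i * b ^ j * c ^ k = a ^ i' * b ^ j' * c ^ k') : ω ^ i = ω ^ i' := by
  have h1 : a ^ (i + 2 * i') * b ^ (j + 2 * j') * c ^ (k + 2 * k') = 1 := by
    rw [← abc_mul D.ab D.ac D.bc, h, abc_mul D.ab D.ac D.bc]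
    have e1 : i' + 2 * i' = 3 * i' := by ring
    have e2 : j' + 2 * j' = 3 * j' := by ring
    have e3 : k' + 2 * k' = 3 * k' := by ring
    rw [e1, e2, e3, pow_mul, pow_mul, pow_mul, D.a3, D.b3, D.c3, one_pow, one_pow, one_pow,
      mul_one, mul_one]
  obtain ⟨⟨m, hm⟩, -, -⟩ := D.indep _ _ _ h1
  have h2 : ω ^ i * ω ^ (2 * i') = 1 := by rw [← pow_add, hm, pow_mul, hω, one_pow]
  have h3 : ω ^ i' * ω ^ (2 * i') = 1 := by
    have e1 : i' + 2 * i' = 3 * i' := by ring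
    rw [← pow_add, e1, pow_mul, hω, one_pow]
  exact mul_right_cancel (h2.trans h3.symm)

theorem C_uniq (D : Data H T a b c w w') (ω : ℂˣ) (hω : ω ^ 3 = 1) (i j k e i' j' k' e' : ℕ)
    (h : a ^ i * b ^ j * c ^ k * w ^ e = a ^ i' * b ^ j' * c ^ k' * w ^ e') :
    ω ^ i = ω ^ i' := by
  obtain ⟨j₁, k₁, h1⟩ := C_mul D i j k e i j k e
  obtain ⟨j₂, k₂, h2⟩ := C_mul D i' j' k' e' i' j' k' e'
  have hw : ∀ e : ℕ, w ^ (e + e) = 1 := by
    intro e
    rw [pow_add]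
    rcases pow_two_cases D.w2 e with h | h
    · rw [h, mul_one]
    · rw [h, D.w2]
  rw [hw, mul_one] at h1 h2
  rw [h] at h1
  have h3 := T_uniq D ω hω (i + i) j₁ k₁ (i' + i') j₂ k₂ (h1.symm.trans h2)
  have h4 : ∀ n : ℕ, ω ^ n = (ω ^ (n + n)) ^ 2 := by
    intro n
    have e1 : (n + n) * 2 = 3 * n + n := by ring
    rw [← pow_mul, e1, pow_add, pow_mul, hω, one_pow, one_mul]
  rw [h4 i, h4 i', h3]

/-- The submonoid of normal forms `a^i b^j c^k w^e`. -/
def Cmon (D : Data H T a b c w w') : Submonoid G where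
  carrier := {y | ∃ i j k e : ℕ, y = a ^ i * b ^ j * c ^ k * w ^ e}
  one_mem' := ⟨0, 0, 0, 0, by simp⟩
  mul_mem' := by
    rintro y z ⟨i, j, k, e, rfl⟩ ⟨i', j', k', e', rfl⟩
    obtain ⟨j'', k'', h⟩ := C_mul D i j k e i' j' k' e'
    exact ⟨i + i', j'', k'', e + e', h⟩

/-- The subgroup `C = T⟨w⟩` of normal forms. -/
def Csub [Finite G] (D : Data H T a b c w w') : Subgroup G :=
  { Cmon D with
    inv_mem' := by
      intro y hy
      rw [inv_eq_pow_card y]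
      exact (Cmon D).pow_mem hy _ }

theorem mem_Csub [Finite G] (D : Data H T a b c w w') {y : G} :
    y ∈ Csub D ↔ ∃ i j k e : ℕ, y = a ^ i * b ^ j * c ^ k * w ^ e := Iff.rfl

noncomputable def nuFun [Finite G] (D : Data H T a b c w w') (ω : ℂˣ) (y : ↥(Csub D)) : ℂˣ :=
  ω ^ (Classical.choose ((mem_Csub D).1 y.2))

theorem nuFun_eq [Finite G] (D : Data H T a b c w w') (ω : ℂˣ) (hω : ω ^ 3 = 1)
    (y : ↥(Csub D)) (i j k e : ℕ) (h : (y : G) = a ^ i * b ^ j * c ^ k * w ^ e) :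
    nuFun D ω y = ω ^ i := by
  obtain ⟨j', k', e', h'⟩ := Classical.choose_spec ((mem_Csub D).1 y.2)
  exact C_uniq D ω hω _ j' k' e' i j k e (h'.symm.trans h)

/-- The character `ν`. -/
noncomputable def nu [Finite G] (D : Data H T a b c w w') (ω : ℂˣ) (hω : ω ^ 3 = 1) :
    ↥(Csub D) →* ℂˣ where
  toFun := nuFun D ω
  map_one' := by
    rw [nuFun_eq D ω hω 1 0 0 0 0 (by simp), pow_zero]
  map_mul' := by
    intro y z
    obtain ⟨i, j, k, e, hy⟩ := (mem_Csub D).1 y.2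
    obtain ⟨i', j', k', e', hz⟩ := (mem_Csub D).1 z.2
    obtain ⟨j'', k'', h⟩ := C_mul D i j k e i' j' k' e'
    rw [nuFun_eq D ω hω y i j k e hy, nuFun_eq D ω hω z i' j' k' e' hz,
      nuFun_eq D ω hω (y * z) (i + i') j'' k'' (e + e')
        (by rw [Subgroup.coe_mul, hy, hz, h]), pow_add]

theorem nu_eq [Finite G] (D : Data H T a b c w w') (ω : ℂˣ) (hω : ω ^ 3 = 1)
    (y : ↥(Csub D)) (i j k e : ℕ) (h : (y : G) = a ^ i * b ^ j * c ^ k * w ^ e) :
    nu D ω hω y = ω ^ i := nuFun_eq D ω hω y i j k e h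

theorem b_ne_one (D : Data H T a b c w w') : b ≠ 1 := by
  intro h
  have h1 := D.indep 0 1 0 (by rw [h]; simp)
  omega

theorem a_ne_one (D : Data H T a b c w w') : a ≠ 1 := by
  intro h
  have h1 := D.indep 1 0 0 (by rw [h]; simp)
  omega

theorem a_comm_C [Finite G] (D : Data H T a b c w w') {y : G} (hy : y ∈ Csub D) :
    a * y = y * a := by
  obtain ⟨i, j, k, e, rfl⟩ := (mem_Csub D).1 hy
  have hw : Commute a w := by
    show a * w = w * a
    calc a * w = (w * a * w⁻¹) * w := by rw [D.wa]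
      _ = w * a := by group
  exact ((((Commute.refl a).pow_right i).mul_right
    ((show Commute a b from D.ab).pow_right j)).mul_right
    ((show Commute a c from D.ac).pow_right k)).mul_right (hw.pow_right e) |>.eq

theorem w_not_mem_T (D : Data H T a b c w w') : w ∉ T := by
  intro hw
  obtain ⟨i, j, k, h⟩ := D.T_eq w hw
  have hc : Commute w b := by
    rw [h]
    exact (((show Commute a b from D.ab).pow_left i).mul_left
      ((Commute.refl b).pow_left j)).mul_left ((show Commute c b from D.bc.symm).pow_left k)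
  have h1 : w * b * w⁻¹ = b := by rw [hc.eq]; group
  rw [D.wb] at h1
  apply b_ne_one D
  have h2 : b * b = 1 := by
    calc b * b = b * b⁻¹ := by rw [h1]
      _ = 1 := mul_inv_cancel b
  calc b = b * (b * b) := by rw [h2, mul_one]
    _ = b ^ 3 := (pow_three b).symm
    _ = 1 := D.b3

theorem w'_not_mem_C [Finite G] (D : Data H T a b c w w') : w' ∉ Csub D := by
  intro h
  have h1 := a_comm_C D h
  have h2 : w' * a * w'⁻¹ = a := by rw [← h1]; group
  rw [D.w'a] at h2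
  apply a_ne_one D
  have h3 : a * a = 1 := by
    calc a * a = a * a⁻¹ := by rw [h2]
      _ = 1 := mul_inv_cancel a
  calc a = a * (a * a) := by rw [h3, mul_one]
    _ = a ^ 3 := (pow_three a).symm
    _ = 1 := D.a3

theorem T_le_C [Finite G] (D : Data H T a b c w w') : T ≤ Csub D := by
  intro t ht
  obtain ⟨i, j, k, h⟩ := D.T_eq t ht
  exact (mem_Csub D).2 ⟨i, j, k, 0, by rw [h, pow_zero, mul_one]⟩

theorem C_le_H [Finite G] (D : Data H T a b c w w') : Csub D ≤ H := by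
  intro y hy
  obtain ⟨i, j, k, e, rfl⟩ := (mem_Csub D).1 hy
  exact H.mul_mem (H.mul_mem (H.mul_mem (H.pow_mem (D.hTH D.haT) i)
    (H.pow_mem (D.hTH D.hbT) j)) (H.pow_mem (D.hTH D.hcT) k)) (H.pow_mem D.hwH e)

theorem w_mem_C [Finite G] (D : Data H T a b c w w') : w ∈ Csub D :=
  (mem_Csub D).2 ⟨0, 0, 0, 1, by simp⟩

theorem w'_conj_C (D : Data H T a b c w w') (i j k e : ℕ) :
    w' * (a ^ i * b ^ j * c ^ k * w ^ e) * w'⁻¹ =
      a ^ (2 * i) * b ^ j * c ^ (2 * k) * w ^ e := by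
  have h1 : w' * w ^ e * w'⁻¹ = w ^ e := by
    have hc : Commute w' w := D.ww'.symm
    rw [(hc.pow_right e).eq]; group
  calc w' * (a ^ i * b ^ j * c ^ k * w ^ e) * w'⁻¹
      = (w' * (a ^ i * b ^ j * c ^ k) * w'⁻¹) * (w' * w ^ e * w'⁻¹) := by group
    _ = a ^ (2 * i) * b ^ j * c ^ (2 * k) * w ^ e := by rw [w'_conj D, h1]

theorem H_cases [Finite G] (D : Data H T a b c w w') {x : G} (hx : x ∈ H) :
    x ∈ Csub D ∨ ∃ c₀ ∈ Csub D, x = c₀ * w' := by
  obtain ⟨t, ht, e, f, rfl⟩ := D.H_eq x hx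
  have hc₀ : t * w ^ e ∈ Csub D :=
    (Csub D).mul_mem (T_le_C D ht) ((Csub D).pow_mem (w_mem_C D) e)
  rcases pow_two_cases D.w'2 f with h | h
  · left; rw [h, mul_one]; exact hc₀
  · right; exact ⟨t * w ^ e, hc₀, by rw [h]⟩

theorem w'_conj_mem [Finite G] (D : Data H T a b c w w') {y : G} (hy : y ∈ Csub D) :
    w' * y * w'⁻¹ ∈ Csub D := by
  obtain ⟨i, j, k, e, rfl⟩ := (mem_Csub D).1 hy
  exact (mem_Csub D).2 ⟨2 * i, j, 2 * k, e, w'_conj_C D i j k e⟩

theorem H_norm_C [Finite G] (D : Data H T a b c w w') :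
    ∀ x ∈ H, ∀ y ∈ Csub D, x * y * x⁻¹ ∈ Csub D := by
  intro x hx y hy
  rcases H_cases D hx with h | ⟨c₀, hc₀, rfl⟩
  · exact (Csub D).mul_mem ((Csub D).mul_mem h hy) ((Csub D).inv_mem h)
  · have e : c₀ * w' * y * (c₀ * w')⁻¹ = c₀ * (w' * y * w'⁻¹) * c₀⁻¹ := by group
    rw [e]
    exact (Csub D).mul_mem ((Csub D).mul_mem hc₀ (w'_conj_mem D hy)) ((Csub D).inv_mem hc₀)

theorem card_H_eq [Finite G] (D : Data H T a b c w w') :
    Nat.card H = 2 * Nat.card (Csub D) := by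
  have h1 : Nat.card T ∣ Nat.card (Csub D) := Subgroup.card_dvd_of_le (T_le_C D)
  have h2 : Nat.card (Csub D) ∣ Nat.card H := Subgroup.card_dvd_of_le (C_le_H D)
  have hT := D.cardT
  have hH := D.cardH
  rw [hT] at h1
  rw [hH] at h2 ⊢
  obtain ⟨m, hm⟩ := h1
  rw [hm] at h2 ⊢
  have h3 : m ∣ 4 := Nat.dvd_of_mul_dvd_mul_left (by norm_num : 0 < 27) (by simpa using h2)
  have h4 : m ≤ 4 := Nat.le_of_dvd (by norm_num) h3
  interval_cases m
  · exact absurd h3 (by decide)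
  · exfalso
    have h5 : T = Csub D := Subgroup.eq_of_le_of_card_ge (T_le_C D) (by omega)
    exact w_not_mem_T D (by rw [h5]; exact w_mem_C D)
  · norm_num
  · exact absurd h3 (by decide)
  · exfalso
    have h5 : Csub D = H := Subgroup.eq_of_le_of_card_ge (C_le_H D) (by omega)
    exact w'_not_mem_C D (by rw [h5]; exact D.hw'H)

end data

/-- **Package NU.** -/
theorem pkgNu : PkgNu.{u} := by
  intro G _ _ H T a b c w w' D
  obtain ⟨ω, hω3, hω1⟩ := exists_omega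
  refine ⟨Csub D, nu D ω hω3, H_norm_C D, C_le_H D, T_le_C D, w_mem_C D, card_H_eq D,
    ?_, ?_, ?_⟩
  · intro x hx hxC y
    rcases H_cases D hx with h | ⟨c₀, hc₀, rfl⟩
    · exact absurd h hxC
    · obtain ⟨i, j, k, e, hy⟩ := (mem_Csub D).1 y.2
      have hz : w' * (y : G) * w'⁻¹ = a ^ (2 * i) * b ^ j * c ^ (2 * k) * w ^ e := by
        rw [hy]; exact w'_conj_C D i j k e
      have hzmem : w' * (y : G) * w'⁻¹ ∈ Csub D := w'_conj_mem D y.2
      have e1 : (⟨c₀ * w' * (y : G) * (c₀ * w')⁻¹, H_norm_C D _ hx y y.2⟩ : ↥(Csub D)) =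
          ⟨c₀, hc₀⟩ * ⟨w' * (y : G) * w'⁻¹, hzmem⟩ * ⟨c₀, hc₀⟩⁻¹ := by
        apply Subtype.ext
        show c₀ * w' * (y : G) * (c₀ * w')⁻¹ = c₀ * (w' * (y : G) * w'⁻¹) * c₀⁻¹
        group
      rw [e1, map_mul, map_mul, map_inv, mul_inv_cancel_comm,
        nu_eq D ω hω3 _ (2 * i) j (2 * k) e hz, nu_eq D ω hω3 y i j k e hy]
      apply eq_inv_of_mul_eq_one_left
      have e2 : 2 * i + i = 3 * i := by ring
      rw [← pow_add, e2, pow_mul, hω3, one_pow]
  · intro y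
    obtain ⟨i, j, k, e, hy⟩ := (mem_Csub D).1 y.2
    rw [nu_eq D ω hω3 y i j k e hy, ← pow_mul, mul_comm, pow_mul, hω3, one_pow]
  · have ha : a ∈ Csub D := T_le_C D D.haT
    refine ⟨ha, ?_⟩
    rw [nu_eq D ω hω3 ⟨a, ha⟩ 1 0 0 0 (by simp), pow_one]
    exact hω1

end Cfsg.Agent.Lib.Helper90.S3701
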