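import Mathlib
import Cfsg.Agent.Lib.Helper70.S3701.Defs
import Cfsg.Agent.Lib.Helper90.S3701.Nu

/-!
# S3701, package NOFUSE: `w'` is not conjugate to `w`

If `g w' g⁻¹ = w` then `g b g⁻¹` is a `3`-element of `K = C_G(w) ∋ a`.  A Sylow `3`-subgroup of
`K` containing `a` lies in `T` (Sylow + TI), and by Sylow's theorem in `K` some `K`-conjugate `y`
of `g b g⁻¹` lies in it.  By TI the conjugating element is in `H`, so `y = b^{±1}`, which does
not commute with `w`.
-/

set_option autoImplicit false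

namespace Cfsg.Agent.Lib.Helper90.S3701

open Cfsg.Agent.Lib.Helper70.S3701
open scoped Pointwise

universe u

section data

variable {G : Type u} [Group G] {H T : Subgroup G} {a b c w w' : G}

theorem T_comm_b (D : Data H T a b c w w') {t : G} (ht : t ∈ T) : t * b = b * t := by
  obtain ⟨i, j, k, rfl⟩ := D.T_eq t ht
  exact ((((show Commute a b from D.ab).pow_left i).mul_left
    ((Commute.refl b).pow_left j)).mul_left ((show Commute c b from D.bc.symm).pow_left k)).eq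

/-- Conjugation by an element of `H` maps `b` to `b` or `b⁻¹`. -/
theorem H_conj_b (D : Data H T a b c w w') {x : G} (hx : x ∈ H) :
    x * b * x⁻¹ = b ∨ x * b * x⁻¹ = b⁻¹ := by
  obtain ⟨t, ht, e, f, rfl⟩ := D.H_eq x hx
  have h1 : w' ^ f * b * (w' ^ f)⁻¹ = b := by
    have hc : Commute w' b := by
      show w' * b = b * w'
      calc w' * b = (w' * b * w'⁻¹) * w' := by group
        _ = b * w' := by rw [D.w'b]
    rw [(hc.pow_left f).eq]; group
  have htb : t * b * t⁻¹ = b := by rw [T_comm_b D ht]; group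
  have htb' : t * b⁻¹ * t⁻¹ = b⁻¹ := by
    calc t * b⁻¹ * t⁻¹ = (t * b * t⁻¹)⁻¹ := by group
      _ = b⁻¹ := by rw [htb]
  have e1 : t * w ^ e * w' ^ f * b * (t * w ^ e * w' ^ f)⁻¹ =
      t * (w ^ e * (w' ^ f * b * (w' ^ f)⁻¹) * (w ^ e)⁻¹) * t⁻¹ := by group
  rw [e1, h1]
  rcases pow_two_cases D.w2 e with h | h
  · left
    rw [h]
    calc t * (1 * b * 1⁻¹) * t⁻¹ = t * b * t⁻¹ := by group
      _ = b := htb
  · right
    rw [h, D.wb]
    exact htb'

end data

/-- **Package NOFUSE.** -/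
theorem pkgNoFuse : PkgNoFuse.{u} := by
  intro hTI hSyl G _ _ H T a b c w w' D g hg
  haveI : Fact (Nat.Prime 3) := ⟨Nat.prime_three⟩
  obtain ⟨K, hK⟩ : ∃ K : Subgroup G, K = Subgroup.centralizer ({w} : Set G) := ⟨_, rfl⟩
  have hmemK : ∀ y : G, y ∈ K ↔ w * y = y * w := by
    intro y
    rw [hK, Subgroup.mem_centralizer_iff]
    constructor
    · intro h
      exact h w (Set.mem_singleton w)
    · intro h z hz
      rw [Set.mem_singleton_iff] at hz
      rw [hz]
      exact h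
  have haK : a ∈ K := by
    rw [hmemK]
    calc w * a = (w * a * w⁻¹) * w := by group
      _ = a * w := by rw [D.wa]
  have hb₁K : g * b * g⁻¹ ∈ K := by
    rw [hmemK, ← hg]
    have h1 : w' * b = b * w' := by
      calc w' * b = (w' * b * w'⁻¹) * w' := by group
        _ = b * w' := by rw [D.w'b]
    calc g * w' * g⁻¹ * (g * b * g⁻¹) = g * (w' * b) * g⁻¹ := by group
      _ = g * (b * w') * g⁻¹ := by rw [h1]
      _ = g * b * g⁻¹ * (g * w' * g⁻¹) := by group
  have hb₁3 : (g * b * g⁻¹) ^ 3 = 1 := by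
    rw [conj_pow, D.b3]
    group
  have hb₁1 : g * b * g⁻¹ ≠ 1 := by
    intro h
    apply b_ne_one D
    calc b = g⁻¹ * (g * b * g⁻¹) * g := by group
      _ = 1 := by rw [h]; group
  have hpgA : IsPGroup 3 (Subgroup.zpowers (⟨a, haK⟩ : ↥K)) := by
    apply IsPGroup.of_card (n := 1)
    rw [Nat.card_zpowers, pow_one]
    apply orderOf_eq_prime
    · exact Subtype.ext (by rw [Subgroup.coe_pow]; exact D.a3)
    · intro h
      exact a_ne_one D (congrArg Subtype.val h)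
  have hpgB : IsPGroup 3 (Subgroup.zpowers (⟨g * b * g⁻¹, hb₁K⟩ : ↥K)) := by
    apply IsPGroup.of_card (n := 1)
    rw [Nat.card_zpowers, pow_one]
    apply orderOf_eq_prime
    · exact Subtype.ext (by rw [Subgroup.coe_pow]; exact hb₁3)
    · intro h
      exact hb₁1 (congrArg Subtype.val h)
  obtain ⟨P, hP⟩ := hpgA.exists_le_sylow
  obtain ⟨Q, hQ⟩ := hpgB.exists_le_sylow
  obtain ⟨k, hk⟩ := MulAction.exists_smul_eq (↥K) Q P
  have hyP : k * ⟨g * b * g⁻¹, hb₁K⟩ * k⁻¹ ∈ (P : Subgroup ↥K) := by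
    have h1 : MulAut.conj k • (⟨g * b * g⁻¹, hb₁K⟩ : ↥K) ∈ MulAut.conj k • (Q : Subgroup ↥K) :=
      Subgroup.smul_mem_pointwise_smul _ _ _ (hQ (Subgroup.mem_zpowers _))
    rw [← Sylow.coe_subgroup_smul, hk] at h1
    exact h1
  have haP : (⟨a, haK⟩ : ↥K) ∈ (P : Subgroup ↥K) := hP (Subgroup.mem_zpowers _)
  have hR : IsPGroup 3 ((P : Subgroup ↥K).map K.subtype) := P.isPGroup'.map K.subtype
  obtain ⟨h, hh⟩ := hSyl H T a b c w w' D _ hR
  have haR : a ∈ (P : Subgroup ↥K).map K.subtype := ⟨⟨a, haK⟩, haP, rfl⟩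
  have hhH : h ∈ H := hTI H T a b c w w' D h a D.haT (a_ne_one D) (D.hTH (hh a haR))
  have hRT : ∀ r ∈ (P : Subgroup ↥K).map K.subtype, r ∈ T := by
    intro r hr
    have h1 := hh r hr
    have h2 : h⁻¹ ∈ Subgroup.normalizer (T : Set G) := by
      rw [D.hN]
      exact H.inv_mem hhH
    have h3 := (Subgroup.mem_normalizer_iff.1 h2 (h * r * h⁻¹)).1 h1
    have e : h⁻¹ * (h * r * h⁻¹) * h⁻¹⁻¹ = r := by group
    rwa [e] at h3
  have hy : (k : G) * (g * b * g⁻¹) * (k : G)⁻¹ ∈ (P : Subgroup ↥K).map K.subtype :=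
    ⟨k * ⟨g * b * g⁻¹, hb₁K⟩ * k⁻¹, hyP, rfl⟩
  have hyT := hRT _ hy
  have hyK : w * ((k : G) * (g * b * g⁻¹) * (k : G)⁻¹) =
      ((k : G) * (g * b * g⁻¹) * (k : G)⁻¹) * w :=
    (hmemK _).1 (K.mul_mem (K.mul_mem k.2 hb₁K) (K.inv_mem k.2))
  have e1 : (k : G) * (g * b * g⁻¹) * (k : G)⁻¹ = ((k : G) * g) * b * ((k : G) * g)⁻¹ := by
    group
  rw [e1] at hyT hyK
  have hkgH : (k : G) * g ∈ H :=
    hTI H T a b c w w' D _ b D.hbT (b_ne_one D) (D.hTH hyT)
  have hbw : w * b = b * w := by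
    rcases H_conj_b D hkgH with h1 | h1
    · rw [h1] at hyK
      exact hyK
    · rw [h1] at hyK
      calc w * b = b * (b⁻¹ * w) * b := by group
        _ = b * (w * b⁻¹) * b := by rw [hyK]
        _ = b * w := by group
  have h1 : w * b * w⁻¹ = b := by rw [hbw]; group
  rw [D.wb] at h1
  apply b_ne_one D
  have h2 : b * b = 1 := by
    calc b * b = b * b⁻¹ := by rw [h1]
      _ = 1 := mul_inv_cancel b
  calc b = b * (b * b) := by rw [h2, mul_one]
    _ = b ^ 3 := (pow_three b).symm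
    _ = 1 := D.b3

end Cfsg.Agent.Lib.Helper90.S3701
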